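import Mathlib
import Cfsg.Agent.Lib.Ht0.Basic
import Cfsg.Agent.Lib.Char.Monomial
import Cfsg.Agent.S4548

/-! Cyclic Sylow `2`-subgroups and the number of odd degree characters of the principal block. -/

set_option autoImplicit false

namespace CfsgLib.K04

open Cfsg CfsgLib.Char CfsgLib.Block CfsgLib.Ht0
open scoped ComplexConjugate

variable {G : Type*} [Group G] [Finite G] {M : Ideal AlgInt}

theorem card_of_cyclic [Fact (Nat.Prime 2)] (hM : IsPModular 2 M) (P : Sylow 2 G) (hP : IsCyclic P) :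
    (X 2 M G).card = Nat.card P := by
  classical
  have hN : HasNormalPComplement 2 G := by
    by_cases hd : 2 ∣ Nat.card G
    · exact Transfer.burnside_normal_complement P
        (hP.normalizer_le_centralizer ((Nat.minFac_eq_two_iff _).2 hd))
    · refine Transfer.burnside_normal_complement P fun x _ => ?_
      have h1 : Nat.card P = 1 := by
        rw [P.card_eq_multiplicity, Nat.factorization_eq_zero_of_not_dvd hd, pow_zero]
      rw [Subgroup.card_eq_one] at h1
      intro y hy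
      have hy' : y ∈ (P : Subgroup G) := hy
      rw [h1, Subgroup.mem_bot] at hy'
      rw [hy', one_mul, mul_one]
  obtain ⟨k, hk⟩ := index_pPrimeCore_of_hasNormalPComplement hN
  have h1 := sum_principal_of_index hM hk (y := 1) (y' := 1) (by simp) (by simp)
  rw [← Nat.cast_pow, ← P.card_eq_multiplicity] at h1
  have hKn : (pResidual 2 G).Normal := Transfer.pResidual_normal 2 G
  have hdec : ∀ g : G, ∃ n ∈ pResidual 2 G, ∃ y ∈ (P : Subgroup G), n * y = g := fun g => by
    have hg : g ∈ pResidual 2 G ⊔ (P : Subgroup G) := by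
      rw [Transfer.pResidual_sup_sylow]; trivial
    exact Subgroup.mem_sup_of_normal_left.1 hg
  have hcomm : ∀ a b : G, a * b * a⁻¹ * b⁻¹ ∈ pResidual 2 G := fun a b => by
    obtain ⟨n, hn, y, hy, rfl⟩ := hdec a
    obtain ⟨m, hm, z, hz, rfl⟩ := hdec b
    have hyz : y * z = z * y := congrArg Subtype.val
      (hP.isMulCommutative.is_comm.comm (⟨y, hy⟩ : (P : Subgroup G)) ⟨z, hz⟩)
    rw [← QuotientGroup.eq_one_iff, ← QuotientGroup.mk'_apply, map_mul, map_mul, map_mul, map_inv,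
      map_inv, mul_inv_eq_one, mul_inv_eq_iff_eq_mul]
    have e1 : QuotientGroup.mk' (pResidual 2 G) n = 1 := (QuotientGroup.eq_one_iff n).2 hn
    have e2 : QuotientGroup.mk' (pResidual 2 G) m = 1 := (QuotientGroup.eq_one_iff m).2 hm
    rw [map_mul, map_mul, e1, e2, one_mul, one_mul, ← map_mul, hyz, map_mul]
  have h3 : ∀ χ ∈ Finset.univ.filter (· ∈ principalBlock M G), (χ : G → ℂ) 1 = 1 := by
    intro χ hχ
    refine irr_one_eq_one_of_commutator χ.2 fun a b => ?_
    have := principal_mul_of_mem_pPrimeCore hM (Finset.mem_filter.1 hχ).2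
      ((Transfer.pResidual_eq_pPrimeCore hN).le (hcomm a b)) 1
    rwa [one_mul] at this
  have h4 : X 2 M G = Finset.univ.filter (· ∈ principalBlock M G) := by
    ext χ
    rw [mem_X]
    refine ⟨fun h => Finset.mem_filter.2 ⟨Finset.mem_univ _, h.1⟩,
      fun h => ⟨(Finset.mem_filter.1 h).2, ?_⟩⟩
    rw [charDegree_eq_of_eq (n := 1) (by rw [h3 χ h, Nat.cast_one])]
    norm_num
  rw [Finset.sum_congr rfl (g := fun _ => (1 : ℂ)) fun χ hχ => by rw [h3 χ hχ, map_one, mul_one],
    Finset.sum_const, nsmul_eq_mul, mul_one] at h1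
  rw [h4]
  exact_mod_cast h1

theorem index_of_cyclic [Fact (Nat.Prime 2)] (hM : IsPModular 2 M) (P : Sylow 2 G)
    (h4 : (X 2 M G).card = 4) (hP : IsCyclic P) : (commutator P).index = 4 := by
  have h1 := card_of_cyclic hM P hP
  have h2 : commutator P = ⊥ := by
    rw [commutator_def, Subgroup.commutator_eq_bot_iff_le_centralizer]
    intro x _ y _
    exact hP.isMulCommutative.is_comm.comm y x
  rw [h2, Subgroup.index_bot, ← h1, h4]

theorem index_of_moved [Fact (Nat.Prime 2)] (hM : IsPModular 2 M) (P : Sylow 2 G)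
    (h4 : (X 2 M G).card = 4) (k : ℕ)
    (hk₁ : ∀ g : G, (∃ j : ℕ, orderOf g = 2 ^ j) → g ^ k = g ^ 3)
    (hk₂ : ∀ g : G, Odd (orderOf g) → g ^ k = g)
    (hmv : ∃ χ ∈ X 2 M G, ∃ g : G, (χ : G → ℂ) (g ^ k) ≠ (χ : G → ℂ) g) :
    (commutator P).index = 4 := by
  classical
  have hev : Even (Nat.card G) := even_iff_two_dvd.2 (dvd_card_of_one_lt hM (by omega))
  refine index_of_cyclic hM P h4 ((Cfsg.Agent.S4548.result M hM hev P k hk₁ hk₂).2 ?_)
  have h3 := Cfsg.Agent.S4550.result M hM hev k hk₁ hk₂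
  obtain ⟨F, hF⟩ : ∃ F : Finset (IrrCharacter G),
    F = (X 2 M G).filter fun χ : IrrCharacter G => ∀ g : G, (χ : G → ℂ) (g ^ k) = (χ : G → ℂ) g := ⟨_, rfl⟩
  have e : Nat.card {χ : IrrCharacter G // χ ∈ principalBlock M G ∧ Odd (charDegree (χ : G → ℂ)) ∧
      ∀ g : G, (χ : G → ℂ) (g ^ k) = (χ : G → ℂ) g} = F.card := by
    rw [← Nat.card_eq_finsetCard]
    refine Nat.card_congr (Equiv.subtypeEquivRight fun χ => ?_)
    rw [hF, Finset.mem_filter, mem_X, Nat.two_dvd_ne_zero, Nat.odd_iff, and_assoc]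
  rw [e] at h3 ⊢
  have h5 : 0 < F.card := Finset.card_pos.2 ⟨irrOne G, by
    rw [hF]; exact Finset.mem_filter.2 ⟨one_mem_X hM, fun _ => rfl⟩⟩
  have h6 : F.card < (X 2 M G).card := by
    obtain ⟨χ, hχ, g, hg⟩ := hmv
    rw [hF]
    exact Finset.card_lt_card (Finset.filter_ssubset.2 ⟨χ, hχ, fun h => hg (h g)⟩)
  obtain ⟨r, hr⟩ := h3
  omega

end CfsgLib.K04
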